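import Mathlib

/-!
# The centralizer of a double transposition in `A₆` is dihedral of order 8
-/

set_option autoImplicit false

namespace Cfsg.Agent.Lib.SmallCen.CentA6

open Equiv Equiv.Perm DihedralGroup

/-- The standard double transposition. -/
def al0 : Perm (Fin 6) := swap 0 1 * swap 2 3

/-- An element of order four. -/
def R0 : Perm (Fin 6) := (swap 0 2 * swap 2 1 * swap 1 3) * swap 4 5

/-- A reflection. -/
def S0 : Perm (Fin 6) := swap 0 1 * swap 4 5

/-- The map on elements. -/
def toPerm : DihedralGroup 4 → Perm (Fin 6)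
  | r i => R0 ^ i.val
  | sr i => S0 * R0 ^ i.val

theorem toPerm_mul : ∀ x y : DihedralGroup 4, toPerm (x * y) = toPerm x * toPerm y := by
  decide +kernel

theorem toPerm_one : toPerm 1 = 1 := by decide +kernel

theorem toPerm_mem : ∀ x : DihedralGroup 4, sign (toPerm x) = 1 ∧ toPerm x * al0 = al0 * toPerm x := by
  decide +kernel

theorem toPerm_inj : ∀ x y : DihedralGroup 4, toPerm x = toPerm y → x = y := by
  decide +kernel

theorem toPerm_surj : ∀ σ : Perm (Fin 6), σ * al0 = al0 * σ → sign σ = 1 → ∃ x, toPerm x = σ := by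
  decide +kernel

theorem al0_mem : al0 ∈ alternatingGroup (Fin 6) := by
  rw [mem_alternatingGroup]
  decide +kernel

theorem al0_sq : al0 ^ 2 = 1 := by decide +kernel

theorem al0_supp : al0.support.card = 4 := by decide +kernel

/-- The standard double transposition in `A₆`. -/
def alpha0 : alternatingGroup (Fin 6) := ⟨al0, al0_mem⟩

/-- The standard centralizer. -/
noncomputable def equiv0 : DihedralGroup 4 ≃* Subgroup.centralizer ({alpha0} : Set (alternatingGroup (Fin 6))) := by
  refine MulEquiv.ofBijective
    (MonoidHom.mk' (fun x => (⟨⟨toPerm x, mem_alternatingGroup.2 (toPerm_mem x).1⟩,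
      Subgroup.mem_centralizer_singleton_iff.2 (Subtype.ext (toPerm_mem x).2)⟩ :
        Subgroup.centralizer ({alpha0} : Set (alternatingGroup (Fin 6))))) ?_) ⟨?_, ?_⟩
  · intro x y
    apply Subtype.ext
    apply Subtype.ext
    exact toPerm_mul x y
  · intro x y h
    apply toPerm_inj
    have h1 := congrArg (fun z : Subgroup.centralizer ({alpha0} : Set (alternatingGroup (Fin 6))) =>
      ((z : alternatingGroup (Fin 6)) : Perm (Fin 6))) h
    exact h1
  · intro z
    have h1 : (z : alternatingGroup (Fin 6)) * alpha0 = alpha0 * z :=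
      Subgroup.mem_centralizer_singleton_iff.1 z.2
    have h2 : ((z : alternatingGroup (Fin 6)) : Perm (Fin 6)) * al0 =
        al0 * ((z : alternatingGroup (Fin 6)) : Perm (Fin 6)) := congrArg Subtype.val h1
    obtain ⟨x, hx⟩ := toPerm_surj _ h2 (mem_alternatingGroup.1 (z : alternatingGroup (Fin 6)).2)
    refine ⟨x, ?_⟩
    apply Subtype.ext
    apply Subtype.ext
    exact hx

theorem cycleType_of (σ : Perm (Fin 6)) (h1 : σ ^ 2 = 1) (h2 : σ.support.card = 4) :
    σ.cycleType = Multiset.replicate 2 2 := by
  have hall : ∀ d ∈ σ.cycleType, d = 2 := by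
    intro d hd
    have h3 : d ∣ orderOf σ := Equiv.Perm.dvd_of_mem_cycleType hd
    have h4 : orderOf σ ∣ 2 := orderOf_dvd_of_pow_eq_one h1
    have h5 := Equiv.Perm.two_le_of_mem_cycleType hd
    have h6 := Nat.le_of_dvd (by norm_num) (h3.trans h4)
    omega
  have hrep := Multiset.eq_replicate_card.mpr hall
  have hsum := Equiv.Perm.sum_cycleType σ
  rw [h2, hrep] at hsum
  simp only [Multiset.sum_replicate, smul_eq_mul, Multiset.card_replicate] at hsum
  have hk : Multiset.card σ.cycleType = 2 := by omega
  rw [hrep, hk]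

/-- An automorphism carries centralizers to centralizers. -/
def cenCongr {H : Type*} [Group H] (c : H ≃* H) {x y : H} (hxy : c x = y) :
    Subgroup.centralizer ({x} : Set H) ≃* Subgroup.centralizer ({y} : Set H) where
  toFun z := ⟨c z, by
    have h1 : (z : H) * x = x * z := Subgroup.mem_centralizer_singleton_iff.1 z.2
    rw [Subgroup.mem_centralizer_singleton_iff, ← hxy, ← map_mul, ← map_mul, h1]⟩
  invFun z := ⟨c.symm z, by
    have h1 : (z : H) * y = y * z := Subgroup.mem_centralizer_singleton_iff.1 z.2
    rw [Subgroup.mem_centralizer_singleton_iff]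
    apply c.injective
    rw [map_mul, map_mul, MulEquiv.apply_symm_apply, hxy, h1]⟩
  left_inv z := by
    apply Subtype.ext
    simp
  right_inv z := by
    apply Subtype.ext
    simp
  map_mul' a b := by
    apply Subtype.ext
    simp

/-- **The centralizer is dihedral of order 8**. -/
theorem exists_equiv (αt : alternatingGroup (Fin 6)) (h1 : orderOf αt = 2)
    (h2 : (αt : Perm (Fin 6)).support.card = 4) :
    Nonempty (Subgroup.centralizer ({αt} : Set (alternatingGroup (Fin 6))) ≃* DihedralGroup 4) := by
  have h3 : (αt : Perm (Fin 6)) ^ 2 = 1 := by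
    have := pow_orderOf_eq_one αt
    rw [h1] at this
    have h4 := congrArg Subtype.val this
    simpa using h4
  have hconj : IsConj al0 (αt : Perm (Fin 6)) := by
    rw [Equiv.Perm.isConj_iff_cycleType_eq, cycleType_of _ al0_sq al0_supp, cycleType_of _ h3 h2]
  obtain ⟨g, hg⟩ := isConj_iff.1 hconj
  let c : alternatingGroup (Fin 6) ≃* alternatingGroup (Fin 6) := MulAut.conjNormal g
  have hc : c alpha0 = αt := by
    apply Subtype.ext
    show ((MulAut.conjNormal g alpha0 : alternatingGroup (Fin 6)) : Perm (Fin 6)) = _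
    rw [MulAut.conjNormal_apply]
    exact hg
  exact ⟨(cenCongr c hc).symm.trans equiv0.symm⟩

end Cfsg.Agent.Lib.SmallCen.CentA6
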